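import Mathlib

/-!
# Arithmetic for groups with a self-centralising four-group fused by an element of order three

Pure integer and rational arithmetic: the values of irreducible characters on an involution with
centraliser of order four force the class size to be `3` or `15`.
-/

set_option autoImplicit false
set_option linter.style.haveILetI false
set_option linter.unusedVariables false

namespace Cfsg.Agent.Lib.D8Index2.Arith

/-- The final computation. -/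
theorem final_arith (k₁ k₂ k₃ n : ℤ) (hn : 0 < n)
    (hsum : k₁ + k₂ + k₃ = -1)
    (hF : n * ((2 * k₁ + 1) * (2 * k₂ + 1) * (2 * k₃ + 1)) =
      (4 * k₁ + 1) * (4 * k₂ + 1) * (4 * k₃ + 1))
    (hb1 : (4 * k₁ + 1) ^ 2 < 4 * n) (hb2 : (4 * k₂ + 1) ^ 2 < 4 * n)
    (hb3 : (4 * k₃ + 1) ^ 2 < 4 * n) : n = 3 ∨ n = 15 := by
  -- the bound `|4k + 1| ≤ 3 |2k + 1|`
  have hbd : ∀ k : ℤ, |4 * k + 1| ≤ 3 * |2 * k + 1| := by
    intro k
    rcases le_or_gt 0 k with h | h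
    · rw [abs_of_nonneg (by linarith), abs_of_nonneg (by linarith)]
      linarith
    · have h' : k ≤ -1 := by omega
      rw [abs_of_nonpos (by linarith), abs_of_nonpos (by linarith)]
      linarith
  have hpos : ∀ k : ℤ, 0 < |2 * k + 1| := fun k => abs_pos.mpr (by omega)
  have hP : 0 < |2 * k₁ + 1| * |2 * k₂ + 1| * |2 * k₃ + 1| :=
    mul_pos (mul_pos (hpos _) (hpos _)) (hpos _)
  have hle : n ≤ 27 := by
    have h1 : n * (|2 * k₁ + 1| * |2 * k₂ + 1| * |2 * k₃ + 1|) =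
        |4 * k₁ + 1| * |4 * k₂ + 1| * |4 * k₃ + 1| := by
      have := congrArg abs hF
      simp only [abs_mul, abs_of_pos hn] at this
      exact this
    have h2 : |4 * k₁ + 1| * |4 * k₂ + 1| * |4 * k₃ + 1| ≤
        (3 * |2 * k₁ + 1|) * (3 * |2 * k₂ + 1|) * (3 * |2 * k₃ + 1|) := by
      apply mul_le_mul (mul_le_mul (hbd _) (hbd _) (abs_nonneg _) (by positivity)) (hbd _)
        (abs_nonneg _) (by positivity)
    by_contra hcon
    push Not at hcon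
    have h3 : 28 * (|2 * k₁ + 1| * |2 * k₂ + 1| * |2 * k₃ + 1|) ≤
        n * (|2 * k₁ + 1| * |2 * k₂ + 1| * |2 * k₃ + 1|) :=
      mul_le_mul_of_nonneg_right (by omega) hP.le
    nlinarith
  have hrange : ∀ k : ℤ, (4 * k + 1) ^ 2 < 4 * n → -2 ≤ k ∧ k ≤ 2 := by
    intro k hk
    have h1 : (4 * k + 1) ^ 2 < 108 := by linarith
    constructor <;> nlinarith
  obtain ⟨h1l, h1u⟩ := hrange k₁ hb1
  obtain ⟨h2l, h2u⟩ := hrange k₂ hb2
  have hk3 : k₃ = -1 - k₁ - k₂ := by omega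
  subst hk3
  interval_cases k₁ <;> interval_cases k₂ <;> norm_num at hF hb1 hb2 hb3 ⊢ <;> omega

/-- A sum over a finite type whose support is within four given indices. -/
lemma sum_four {I : Type*} [Fintype I] [DecidableEq I] {R : Type*} [AddCommMonoid R]
    (i₀ x y z : I) (h0x : i₀ ≠ x) (h0y : i₀ ≠ y) (h0z : i₀ ≠ z)
    (hxy : x ≠ y) (hxz : x ≠ z) (hyz : y ≠ z)
    (f : I → R) (hf : ∀ i, i ≠ i₀ → i ≠ x → i ≠ y → i ≠ z → f i = 0) :
    ∑ i, f i = f i₀ + (f x + (f y + f z)) := by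
  have hsub : ({i₀, x, y, z} : Finset I) ⊆ Finset.univ := Finset.subset_univ _
  rw [← Finset.sum_subset hsub]
  · rw [Finset.sum_insert (by simp [h0x, h0y, h0z]),
      Finset.sum_insert (by simp [hxy, hxz]),
      Finset.sum_insert (by simp [hyz]), Finset.sum_singleton]
  · intro i _ hi
    simp only [Finset.mem_insert, Finset.mem_singleton, not_or] at hi
    exact hf i hi.1 hi.2.1 hi.2.2.1 hi.2.2.2

lemma sq_le_three {x : ℤ} (h : x ^ 2 ≤ 3) (hne : x ≠ 0) : x = 1 ∨ x = -1 := by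
  have h2 : x ≤ 1 := by nlinarith
  have h3 : -1 ≤ x := by nlinarith
  omega

/-- One term: from `a² = 1`, `a ^ 3 / d = 1 / (a * d)`. -/
lemma term_lemma (a d : ℤ) (hd : d ≠ 0) (ha : a = 1 ∨ a = -1) :
    (a : ℚ) ^ 3 / d = 1 / ((a * d : ℤ) : ℚ) := by
  have hdq : (d : ℚ) ≠ 0 := by exact_mod_cast hd
  rcases ha with rfl | rfl
  · push_cast; simp
  · push_cast
    field_simp

/-- A signed degree is `≡ 1` modulo `4`. -/
lemma mod_term {a d k : ℤ} (ha : a = 1 ∨ a = -1) (h : d - a = 4 * k) :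
    ∃ l, a * d = 4 * l + 1 := by
  rcases ha with rfl | rfl
  · exact ⟨k, by linarith⟩
  · exact ⟨-k, by linarith⟩

/-- The rational identity for three numbers `≠ 0` with `1 + D₁ + D₂ + D₃ = 0`. -/
lemma frac_identity (D₁ D₂ D₃ n : ℚ) (h1 : D₁ ≠ 0) (h2 : D₂ ≠ 0) (h3 : D₃ ≠ 0) (hn : n ≠ 0)
    (hsum : 1 + D₁ + D₂ + D₃ = 0)
    (hF : 1 + (1 / D₁ + (1 / D₂ + 1 / D₃)) = 8 / n) :
    n * ((1 + D₁) * (1 + D₂) * (1 + D₃)) = 8 * (D₁ * D₂ * D₃) := by
  field_simp at hF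
  have hD3 : D₃ = -1 - D₁ - D₂ := by linarith
  subst hD3
  linear_combination hF

/-- **Arithmetic theorem.** -/
theorem sum_arith {I : Type*} [Fintype I] [DecidableEq I] (a d : I → ℤ) (i₀ : I) (n : ℤ)
    (hn : 0 < n) (h0a : a i₀ = 1) (h0d : d i₀ = 1)
    (hd : ∀ i, 0 < d i)
    (hmod : ∀ i, ∃ k, d i - a i = 4 * k)
    (O1 : ∑ i, a i ^ 2 = 4) (O2 : ∑ i, a i * d i = 0) (O3 : ∑ i, d i ^ 2 = 4 * n)
    (F : ∑ i, (a i : ℚ) ^ 3 / (d i : ℚ) = 8 / (n : ℚ)) : n = 3 ∨ n = 15 := by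
  classical
  set U := Finset.univ.erase i₀ with hU
  have hsplit : ∀ f : I → ℤ, ∑ i, f i = f i₀ + ∑ i ∈ U, f i := fun f =>
    (Finset.add_sum_erase _ f (Finset.mem_univ i₀)).symm
  set B := U.filter (fun i => a i ≠ 0) with hB
  have hU3 : ∑ i ∈ U, a i ^ 2 = 3 := by
    have := hsplit (fun i => a i ^ 2)
    simp only [h0a] at this
    omega
  have hB3 : ∑ i ∈ B, a i ^ 2 = 3 := by
    rw [hB, Finset.sum_filter_of_ne]
    · exact hU3
    · intro i _ h hb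
      apply h
      rw [hb]; norm_num
  have hale : ∀ i ∈ U, a i ^ 2 ≤ 3 := fun i hi => by
    rw [← hU3]
    exact Finset.single_le_sum (f := fun i => a i ^ 2) (fun _ _ => sq_nonneg _) hi
  have ha1 : ∀ i ∈ B, a i = 1 ∨ a i = -1 := by
    intro i hi
    have hi' := Finset.mem_filter.mp hi
    exact sq_le_three (hale i hi'.1) hi'.2
  have ha1' : ∀ i ∈ B, a i ^ 2 = 1 := by
    intro i hi
    rcases ha1 i hi with h | h <;> rw [h] <;> norm_num
  have hBcard : B.card = 3 := by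
    have : ∑ i ∈ B, a i ^ 2 = ∑ i ∈ B, (1 : ℤ) := Finset.sum_congr rfl ha1'
    rw [hB3, Finset.sum_const, nsmul_one] at this
    omega
  obtain ⟨x, y, z, hxy, hxz, hyz, hBeq⟩ := Finset.card_eq_three.mp hBcard
  have hxB : x ∈ B := by rw [hBeq]; simp
  have hyB : y ∈ B := by rw [hBeq]; simp
  have hzB : z ∈ B := by rw [hBeq]; simp
  have hne0 : ∀ i ∈ U, i ≠ i₀ := fun i hi => (Finset.mem_erase.mp hi).1
  have h0x : i₀ ≠ x := (hne0 x (Finset.mem_filter.mp hxB).1).symm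
  have h0y : i₀ ≠ y := (hne0 y (Finset.mem_filter.mp hyB).1).symm
  have h0z : i₀ ≠ z := (hne0 z (Finset.mem_filter.mp hzB).1).symm
  have hout : ∀ i, i ≠ i₀ → i ≠ x → i ≠ y → i ≠ z → a i = 0 := by
    intro i h0 h1 h2 h3
    have hiU : i ∈ U := Finset.mem_erase.mpr ⟨h0, Finset.mem_univ _⟩
    by_contra ha
    have : i ∈ B := Finset.mem_filter.mpr ⟨hiU, ha⟩
    rw [hBeq] at this
    simp at this
    tauto
  have S4 : ∀ f : I → ℤ, (∀ i, a i = 0 → f i = 0) →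
      ∑ i, f i = f i₀ + (f x + (f y + f z)) := fun f hf =>
    sum_four i₀ x y z h0x h0y h0z hxy hxz hyz f fun i h0 h1 h2 h3 => hf i (hout i h0 h1 h2 h3)
  have S4q : ∀ f : I → ℚ, (∀ i, a i = 0 → f i = 0) →
      ∑ i, f i = f i₀ + (f x + (f y + f z)) := fun f hf =>
    sum_four i₀ x y z h0x h0y h0z hxy hxz hyz f fun i h0 h1 h2 h3 => hf i (hout i h0 h1 h2 h3)
  rw [S4 (fun i => a i * d i) (fun i h => by simp [h])] at O2
  rw [S4q (fun i => (a i : ℚ) ^ 3 / (d i : ℚ)) (fun i h => by simp [h])] at F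
  simp only [h0a, h0d] at O2 F
  have hax := ha1 x hxB
  have hay := ha1 y hyB
  have haz := ha1 z hzB
  rw [term_lemma (a x) (d x) (hd x).ne' hax, term_lemma (a y) (d y) (hd y).ne' hay,
    term_lemma (a z) (d z) (hd z).ne' haz] at F
  obtain ⟨k₁', hk₁'⟩ := hmod x
  obtain ⟨k₂', hk₂'⟩ := hmod y
  obtain ⟨k₃', hk₃'⟩ := hmod z
  obtain ⟨k₁, hk₁⟩ := mod_term hax hk₁'
  obtain ⟨k₂, hk₂⟩ := mod_term hay hk₂'
  obtain ⟨k₃, hk₃⟩ := mod_term haz hk₃'
  rw [hk₁, hk₂, hk₃] at F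
  rw [hk₁, hk₂, hk₃] at O2
  have hsum : k₁ + k₂ + k₃ = -1 := by omega
  have hnq : (n : ℚ) ≠ 0 := by exact_mod_cast hn.ne'
  have hne : ∀ k : ℤ, ((4 * k + 1 : ℤ) : ℚ) ≠ 0 := fun k => by
    have : (4 * k + 1 : ℤ) ≠ 0 := by omega
    exact_mod_cast this
  have hfrac := frac_identity ((4 * k₁ + 1 : ℤ) : ℚ) ((4 * k₂ + 1 : ℤ) : ℚ) ((4 * k₃ + 1 : ℤ) : ℚ)
    (n : ℚ) (hne _) (hne _) (hne _) hnq (by
      have : ((1 + (4 * k₁ + 1) + (4 * k₂ + 1) + (4 * k₃ + 1) : ℤ) : ℚ) = 0 := by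
        have : (1 + (4 * k₁ + 1) + (4 * k₂ + 1) + (4 * k₃ + 1) : ℤ) = 0 := by omega
        exact_mod_cast this
      push_cast at this ⊢
      linarith)
    (by
      have := F
      simp only [Int.cast_one, one_div] at this ⊢
      push_cast at this ⊢
      linarith)
  have hF : n * ((2 * k₁ + 1) * (2 * k₂ + 1) * (2 * k₃ + 1)) =
      (4 * k₁ + 1) * (4 * k₂ + 1) * (4 * k₃ + 1) := by
    have h2 : (((n * ((2 * k₁ + 1) * (2 * k₂ + 1) * (2 * k₃ + 1)) : ℤ) : ℚ)) =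
        (((4 * k₁ + 1) * (4 * k₂ + 1) * (4 * k₃ + 1) : ℤ) : ℚ) := by
      push_cast at hfrac ⊢
      linear_combination (1 / 8 : ℚ) * hfrac
    exact_mod_cast h2
  have hsqle : ∀ i, i ≠ i₀ → d i ^ 2 < 4 * n := by
    intro i hi
    rw [← O3]
    have h1 : ∑ j ∈ ({i₀, i} : Finset I), d j ^ 2 ≤ ∑ j, d j ^ 2 :=
      Finset.sum_le_sum_of_subset_of_nonneg (Finset.subset_univ _) (fun _ _ _ => sq_nonneg _)
    rw [Finset.sum_pair (Ne.symm hi), h0d] at h1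
    nlinarith
  have hsqa : ∀ i ∈ B, (a i * d i) ^ 2 = d i ^ 2 := by
    intro i hi
    rw [mul_pow, ha1' i hi, one_mul]
  have hb1 : (4 * k₁ + 1) ^ 2 < 4 * n := by
    rw [← hk₁, hsqa x hxB]
    exact hsqle x h0x.symm
  have hb2 : (4 * k₂ + 1) ^ 2 < 4 * n := by
    rw [← hk₂, hsqa y hyB]
    exact hsqle y h0y.symm
  have hb3 : (4 * k₃ + 1) ^ 2 < 4 * n := by
    rw [← hk₃, hsqa z hzB]
    exact hsqle z h0z.symm
  exact final_arith k₁ k₂ k₃ n hn hsum hF hb1 hb2 hb3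

end Cfsg.Agent.Lib.D8Index2.Arith
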