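import Cfsg.Agent.Lib.Char.ClassProd
import Cfsg.Agent.Lib.Char.Linear
import Cfsg.Agent.Lib.D8Index2.Arith
import Mathlib

/-!
# Involutions with centraliser of order four, all of whose involutions are conjugate

If `t` is an involution of a finite group `G` with `|C_G(t)| = 4` and all non-identity elements of
`C_G(t)` are conjugate to `t`, then `|G| ∈ {12, 60}`.
-/

set_option autoImplicit false
set_option linter.style.haveILetI false
set_option linter.unusedVariables false
set_option linter.unusedSectionVars false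
set_option linter.unnecessarySeqFocus false

namespace Cfsg.Agent.Lib.D8Index2.Four

open Cfsg Cfsg.Agent.Lib.Char.Basic Cfsg.Agent.Lib.Char.Ortho
  Cfsg.Agent.Lib.Char.Complete Cfsg.Agent.Lib.Char.ClassProd Cfsg.Agent.Lib.Char.Linear
open scoped ComplexConjugate

variable {G : Type*} [Group G]

/-- The homomorphism from `ℤˣ` with `-1 ↦ t`. -/
def invHom (t : G) (ht : t * t = 1) : ℤˣ →* G :=
  MonoidHom.mk' (fun u => if u = 1 then 1 else t) (by
    intro a b
    rcases Int.units_eq_one_or a with rfl | rfl <;> rcases Int.units_eq_one_or b with rfl | rfl <;>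
      simp [ht])

/-- The value of a character at an involution is an integer. -/
theorem exists_int_of_invol {χ : G → ℂ} (hχ : IsCharacter G χ) {t : G} (ht : t * t = 1) :
    ∃ A : ℤ, χ t = A := by
  have hψ : IsCharacter ℤˣ (χ ∘ invHom t ht) := isCharacter_comp _ hχ
  have hone : IsCharacter ℤˣ (fun _ => (1 : ℂ)) := isCharacter_one
  let lam : ℤˣ →* ℂˣ := Units.map (Int.castRingHom ℂ).toMonoidHom
  have h2 : IsCharacter ℤˣ (fun g => ((lam g : ℂˣ) : ℂ)) :=
    isCharacter_of_isIrrCharacter (isIrrCharacter_of_hom _)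
  obtain ⟨n₁, hn₁⟩ := exists_nat_classInner hψ hone
  obtain ⟨n₂, hn₂⟩ := exists_nat_classInner hψ h2
  have huniv : (Finset.univ : Finset ℤˣ) = {1, -1} := by decide
  have hc : Nat.card ℤˣ = 2 := by
    rw [Nat.card_eq_fintype_card]; rfl
  have h1v : (χ ∘ invHom t ht) 1 = χ 1 := by simp
  have hmv : (χ ∘ invHom t ht) (-1) = χ t := by
    show χ (if (-1 : ℤˣ) = 1 then 1 else t) = χ t
    rw [if_neg (by decide)]
  rw [classInner_def, huniv, Finset.sum_pair (by decide), hc, h1v, hmv] at hn₁ hn₂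
  have lam1 : ((lam 1 : ℂˣ) : ℂ) = 1 := by simp
  have lamm : ((lam (-1) : ℂˣ) : ℂ) = -1 := by simp [lam]
  rw [lam1, lamm] at hn₂
  simp only [map_one, map_neg, mul_one, mul_neg] at hn₁ hn₂
  refine ⟨(n₁ : ℤ) - n₂, ?_⟩
  push_cast
  have e1 : χ 1 + χ t = 2 * n₁ := by
    rw [← hn₁]; push_cast; ring
  have e2 : χ 1 - χ t = 2 * n₂ := by
    rw [← hn₂]; push_cast; ring
  linear_combination (1 / 2 : ℂ) * e1 - (1 / 2 : ℂ) * e2

variable [Finite G] (t : G)

/-- The values of an irreducible character. -/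
lemma exists_int_values (ht : t * t = 1) (ht1 : t ≠ 1)
    (hC : Nat.card (Subgroup.centralizer ({t} : Set G)) = 4)
    (hconj : ∀ x : G, x * t = t * x → x ≠ 1 → IsConj t x)
    {χ : G → ℂ} (hχ : IsIrrCharacter G χ) :
    ∃ A D : ℤ, χ t = A ∧ χ 1 = D ∧ 0 < D ∧ ∃ k, D - A = 4 * k := by
  classical
  have hcf := isClassFunction_iff_isConj.mp (isClassFunction_of_isIrrCharacter hχ)
  have hchar := isCharacter_of_isIrrCharacter hχ
  obtain ⟨A, hA⟩ := exists_int_of_invol hchar ht
  obtain ⟨n, hn, hdn⟩ := exists_pos_deg_of_isIrr hχ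
  set C := Subgroup.centralizer ({t} : Set G) with hCdef
  letI : Fintype C := Fintype.ofFinite C
  have hψ : IsCharacter C (χ ∘ C.subtype) := isCharacter_comp _ hchar
  obtain ⟨m, hm⟩ := exists_nat_classInner hψ isCharacter_one
  have hsum : ∑ x : C, χ (x : G) = χ 1 + 3 * χ t := by
    rw [← Finset.add_sum_erase _ _ (Finset.mem_univ (1 : C))]
    have hval : ∀ x ∈ Finset.univ.erase (1 : C), χ (x : G) = χ t := by
      intro x hx
      have hx1 : x ≠ 1 := (Finset.mem_erase.mp hx).1
      have hxc : (x : G) * t = t * x := by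
        exact Subgroup.mem_centralizer_singleton_iff.mp x.2
      exact (hcf _ _ (hconj _ hxc (fun h => hx1 (Subtype.ext h)))).symm
    rw [Finset.sum_congr rfl hval, Finset.sum_const, Finset.card_erase_of_mem (Finset.mem_univ _),
      Finset.card_univ, ← Nat.card_eq_fintype_card, hC]
    simp
  rw [classInner_def, hC] at hm
  simp only [map_one, mul_one, Function.comp] at hm
  have hm' : (∑ x : C, χ (C.subtype x)) = 4 * m := by
    rw [← hm]; push_cast; field_simp
  have hsum' : χ 1 + 3 * χ t = 4 * m := by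
    rw [← hsum, ← hm']; rfl
  refine ⟨A, n, hA, hdn ▸ by simp, by exact_mod_cast hn, (m : ℤ) - A, ?_⟩
  have : (((n : ℤ) - A : ℤ) : ℂ) = ((4 * ((m : ℤ) - A) : ℤ) : ℂ) := by
    push_cast
    rw [← hA, ← hdn]
    linear_combination hsum'
  exact_mod_cast this

/-- The number of ways of writing `t` as a product of two conjugates of `t`. -/
lemma card_count (ht : t * t = 1) (ht1 : t ≠ 1)
    (hC : Nat.card (Subgroup.centralizer ({t} : Set G)) = 4)
    (hconj : ∀ x : G, x * t = t * x → x ≠ 1 → IsConj t x) :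
    Nat.card {p : G × G // IsConj t p.1 ∧ IsConj t p.2 ∧ p.1 * p.2 = t} = 2 := by
  classical
  set A : Set G := ((Subgroup.centralizer ({t} : Set G) : Set G) \ {1}) \ {t} with hA
  have hmem : ∀ x, x ∈ A ↔ x * t = t * x ∧ x ≠ 1 ∧ x ≠ t := by
    intro x
    simp only [hA, Set.mem_sdiff, Set.mem_singleton_iff, SetLike.mem_coe,
      Subgroup.mem_centralizer_singleton_iff]
    tauto
  have hinv : ∀ {y : G}, IsConj t y → y * y = 1 ∧ y ≠ 1 := by
    intro y hy
    obtain ⟨g, rfl⟩ := isConj_iff.mp hy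
    constructor
    · calc g * t * g⁻¹ * (g * t * g⁻¹) = g * (t * t) * g⁻¹ := by group
        _ = 1 := by rw [ht]; group
    · intro h
      exact ht1 (conj_eq_one_iff.mp h)
  have hcardA : A.ncard = 2 := by
    have h1 : (1 : G) ∈ (Subgroup.centralizer ({t} : Set G) : Set G) := one_mem _
    have h2 : t ∈ ((Subgroup.centralizer ({t} : Set G) : Set G) \ {1}) := by
      refine ⟨?_, ht1⟩
      show t ∈ Subgroup.centralizer ({t} : Set G)
      rw [Subgroup.mem_centralizer_singleton_iff]
    rw [hA, Set.ncard_sdiff_singleton_of_mem h2, Set.ncard_sdiff_singleton_of_mem h1,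
      ← Nat.card_coe_set_eq]
    show Nat.card (Subgroup.centralizer ({t} : Set G)) - 1 - 1 = 2
    rw [hC]
  let φ : {p : G × G // IsConj t p.1 ∧ IsConj t p.2 ∧ p.1 * p.2 = t} → A := fun p =>
    ⟨p.1.1, by
      obtain ⟨p, hp1, hp2, hp3⟩ := p
      obtain ⟨hu1, hu2⟩ := hinv hp1
      obtain ⟨hv1, hv2⟩ := hinv hp2
      rw [hmem]
      refine ⟨?_, hu2, ?_⟩
      · -- `u` inverts `t` and `t` is an involution
        have hti : t⁻¹ = t := inv_eq_of_mul_eq_one_right ht
        have hui : p.1⁻¹ = p.1 := inv_eq_of_mul_eq_one_right hu1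
        have hvi : p.2⁻¹ = p.2 := inv_eq_of_mul_eq_one_right hv1
        have h1 : t⁻¹ = p.2 * p.1 := by
          rw [← hp3, mul_inv_rev, hui, hvi]
        rw [hti] at h1
        show p.1 * t = t * p.1
        calc p.1 * t = p.1 * (p.1 * p.2) := by rw [hp3]
          _ = p.2 := by rw [← mul_assoc, hu1, one_mul]
          _ = (p.2 * p.1) * p.1 := by rw [mul_assoc, hu1, mul_one]
          _ = t * p.1 := by rw [← h1]
      · intro h
        show False
        apply hv2
        have : p.1 * p.2 = p.1 := by rw [hp3]; exact h.symm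
        exact mul_left_cancel (by rw [this, mul_one])⟩
  have hbij : Function.Bijective φ := by
    constructor
    · rintro ⟨⟨u, v⟩, hu, hv, huv⟩ ⟨⟨u', v'⟩, hu', hv', huv'⟩ h
      have h1 : u = u' := congrArg Subtype.val h
      subst h1
      have h2 : v = v' := mul_left_cancel (huv.trans huv'.symm)
      subst h2
      rfl
    · rintro ⟨x, hx⟩
      obtain ⟨h1, h2, h3⟩ := (hmem x).mp hx
      have h4 : (x⁻¹ * t) * t = t * (x⁻¹ * t) := by
        have : x⁻¹ * t = t * x⁻¹ := (Commute.inv_left (h1 : Commute x t)).eq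
        rw [this, mul_assoc, ← this, ← mul_assoc]
      have h5 : x⁻¹ * t ≠ 1 := by
        intro h
        apply h3
        have : t = x := by
          rw [inv_mul_eq_one] at h
          exact h.symm
        exact this.symm
      exact ⟨⟨(x, x⁻¹ * t), hconj x h1 h2, hconj _ h4 h5, by group⟩, rfl⟩
  rw [Nat.card_congr (Equiv.ofBijective φ hbij), Nat.card_coe_set_eq, hcardA]

/-- **Main theorem.** -/
theorem card_eq_12_or_60 (ht : t * t = 1) (ht1 : t ≠ 1)
    (hC : Nat.card (Subgroup.centralizer ({t} : Set G)) = 4)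
    (hconj : ∀ x : G, x * t = t * x → x ≠ 1 → IsConj t x) :
    Nat.card G = 12 ∨ Nat.card G = 60 := by
  classical
  letI : Fintype G := Fintype.ofFinite G
  haveI := finite_irrCharacter (G := G)
  letI : Fintype (IrrCharacter G) := Fintype.ofFinite _
  have hvals := fun χ : IrrCharacter G => exists_int_values t ht ht1 hC hconj χ.2
  choose a d ha hd hdpos h4 using hvals
  let i₀ : IrrCharacter G := ⟨fun _ => 1, isIrrCharacter_of_deg_one isCharacter_one rfl⟩
  have h0a : a i₀ = 1 := by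
    have : (1 : ℂ) = (a i₀ : ℂ) := ha i₀
    exact_mod_cast this.symm
  have h0d : d i₀ = 1 := by
    have : (1 : ℂ) = (d i₀ : ℂ) := hd i₀
    exact_mod_cast this.symm
  have hsum0 : ∀ (g h : G) (f f' : IrrCharacter G → ℤ), (∀ χ : IrrCharacter G, (χ : G → ℂ) g = f χ) →
      (∀ χ : IrrCharacter G, (χ : G → ℂ) h = f' χ) →
      ((∑ χ, f χ * f' χ : ℤ) : ℂ) =
        ∑ χ : IrrCharacter G, (χ : G → ℂ) g * conj ((χ : G → ℂ) h) := by
    intro g h f f' hf hf'
    push_cast
    refine Finset.sum_congr rfl fun χ _ => ?_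
    rw [hf, hf', map_intCast]
  have hnconj : ¬ IsConj t 1 := fun h => ht1 (isConj_one_right.mp (isConj_comm.mp h))
  have O1 : ∑ i, a i ^ 2 = 4 := by
    have h0 := sum_irr_mul_conj t t
    rw [if_pos (IsConj.refl _), hC, ← hsum0 t t a a ha ha] at h0
    have h3 : ∑ χ, a χ * a χ = 4 := by exact_mod_cast h0
    simpa [sq] using h3
  have O2 : ∑ i, a i * d i = 0 := by
    have h0 := sum_irr_mul_conj t 1
    rw [if_neg hnconj, ← hsum0 t 1 a d ha hd] at h0
    exact_mod_cast h0
  -- class size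
  set N := Nat.card {y : G // IsConj t y} with hN
  have hNcard : N * 4 = Nat.card G := by
    have h1 := card_isConj_mul_card_centralizer t
    rw [hC] at h1
    have h2 : Nat.card {y : G // IsConj y t} = N := by
      rw [hN]
      exact Nat.card_congr (Equiv.subtypeEquivRight fun y => isConj_comm)
    rw [h2] at h1
    exact h1
  have hNpos : 0 < N := by
    have : 0 < Nat.card G := Nat.card_pos
    rw [← hNcard] at this
    omega
  have hNC : (N : ℂ) ≠ 0 := by exact_mod_cast hNpos.ne'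
  have O3 : ∑ i, d i ^ 2 = 4 * (N : ℤ) := by
    have h0 := sum_deg_sq_eq_card (G := G)
    rw [← hNcard] at h0
    have h2 : ((∑ i, d i ^ 2 : ℤ) : ℂ) = ((4 * (N : ℤ) : ℤ) : ℂ) := by
      have h5 : ∑ χ : IrrCharacter G, (χ : G → ℂ) 1 ^ 2 = ∑ χ, (d χ : ℂ) ^ 2 :=
        Finset.sum_congr rfl fun χ _ => by rw [hd]
      rw [h5] at h0
      push_cast at h0 ⊢
      rw [h0]
      ring
    exact_mod_cast h2
  have hcount : ∑ χ, (a χ : ℂ) * (a χ : ℂ) * (a χ : ℂ) / (d χ : ℂ) = 8 / (N : ℂ) := by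
    have h1 := card_product_eq t t t
    rw [card_count t ht ht1 hC hconj, ← hN, ← hNcard] at h1
    have h2 : ∑ χ : IrrCharacter G, (χ : G → ℂ) t * (χ : G → ℂ) t * conj ((χ : G → ℂ) t) /
        (χ : G → ℂ) 1 = ∑ χ, (a χ : ℂ) * (a χ : ℂ) * (a χ : ℂ) / (d χ : ℂ) := by
      refine Finset.sum_congr rfl fun χ _ => ?_
      rw [ha, hd, map_intCast]
    rw [h2] at h1
    have e1 : (N : ℂ) * N / ((N * 4 : ℕ) : ℂ) = (N : ℂ) / 4 := by
      push_cast
      field_simp
    rw [e1] at h1
    rw [eq_div_iff hNC]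
    push_cast at h1
    linear_combination (-4 : ℂ) * h1
  have hF : ∑ χ, (a χ : ℚ) ^ 3 / (d χ : ℚ) = 8 / ((N : ℤ) : ℚ) := by
    have : ((∑ χ, (a χ : ℚ) ^ 3 / (d χ : ℚ) : ℚ) : ℂ) = ((8 / ((N : ℤ) : ℚ) : ℚ) : ℂ) := by
      push_cast
      rw [← hcount]
      refine Finset.sum_congr rfl fun χ _ => ?_
      ring
    exact_mod_cast this
  have hfin := Arith.sum_arith a d i₀ (N : ℤ) (by exact_mod_cast hNpos) h0a h0d hdpos h4
    O1 O2 O3 hF
  rcases hfin with h | h
  · left
    have : N = 3 := by exact_mod_cast h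
    rw [← hNcard, this]
  · right
    have : N = 15 := by exact_mod_cast h
    rw [← hNcard, this]

end Cfsg.Agent.Lib.D8Index2.Four
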