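import Cfsg.Agent.Lib.Invol8.Simple
import Cfsg.Agent.Lib.D8Index2.Four
import Cfsg.Agent.Lib.Core.Basic
import Mathlib

/-!
# Groups with an involution whose centraliser is dihedral of order eight and a subgroup of index two
-/

set_option autoImplicit false
set_option linter.style.haveILetI false
set_option linter.unusedVariables false
set_option linter.unusedSectionVars false
set_option linter.unnecessarySeqFocus false

namespace Cfsg.Agent.Lib.D8Index2.Main

open DihedralGroup Cfsg Cfsg.Agent.Lib.Invol8.Main Cfsg.Agent.Lib.Core.Basic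
  Cfsg.Agent.Lib.Char.Complete
open scoped Pointwise

section generic

variable {G : Type*} [Group G] [Finite G]

lemma mulEquiv_perm_of_injective {X : Type*} [Finite X] (n : ℕ) (hX : Nat.card X = n)
    (f : G →* Equiv.Perm X) (hf : Function.Injective f) (hG : Nat.card G = n.factorial) :
    Nonempty (G ≃* Equiv.Perm (Fin n)) := by
  have e := Finite.equivFinOfCardEq hX
  have hc : Nat.card (Equiv.Perm X) = n.factorial := by
    rw [Nat.card_perm, hX]
  have hb : Function.Bijective f :=
    (Nat.bijective_iff_injective_and_card f).mpr ⟨hf, hG.trans hc.symm⟩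
  exact ⟨(MulEquiv.ofBijective f hb).trans (Equiv.permCongrHom e)⟩

/-- Sup with the odd core from a normal complement of odd order. -/
lemma sup_oddCore_eq_top {S K : Subgroup G} [hK : K.Normal]
    (hcard : Nat.card S * Nat.card K = Nat.card G) (hS : Nat.card S = 8)
    (hodd : Odd (Nat.card K)) : S ⊔ Cfsg.oddCore G = ⊤ := by
  have hcop : (Nat.card S).Coprime (Nat.card K) := by
    rw [hS]
    have : Nat.Coprime (2 ^ 3) (Nat.card K) :=
      Nat.Coprime.pow_left 3 (Nat.coprime_two_left.mpr hodd)
    simpa using this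
  have hc := Subgroup.isComplement'_of_coprime hcard hcop
  have hle : K ≤ Cfsg.oddCore G := le_pPrimeCore hK (Nat.coprime_two_right.mpr hodd)
  rw [eq_top_iff, ← hc.sup_eq_top]
  exact sup_le_sup_left hle S

end generic

section order24

variable {G : Type*} [Group G] [Finite G] (t : G)
  (e : Subgroup.centralizer ({t} : Set G) ≃* DihedralGroup 4)

include e in
lemma central_eq (ht : orderOf t = 2) {w : G} (hw : ∀ g : G, g * w = w * g) : w = 1 ∨ w = t := by
  obtain ⟨c, rfl⟩ := iot_surj t e (hw t).symm
  have hcc : ∀ x : D8, x * c = c * x := fun x =>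
    iot_inj t e (by rw [map_mul, map_mul]; exact hw _)
  rcases central_D8 c hcc with rfl | rfl
  · left; exact map_one _
  · right; exact iot_r2 t e ht

include e in
theorem order24 (ht : orderOf t = 2) (hG : Nat.card G = 24) :
    Subgroup.centralizer ({t} : Set G) ⊔ Cfsg.oddCore G = ⊤ ∨
      Nonempty (G ≃* Equiv.Perm (Fin 4)) := by
  classical
  haveI : Fact (Nat.Prime 3) := ⟨Nat.prime_three⟩
  have hScard := card_cent t e
  obtain ⟨P⟩ : Nonempty (Sylow 3 G) := inferInstance
  have hcardSyl : ∀ Q : Sylow 3 G, Nat.card Q = 3 ∧ (Q : Subgroup G).index = 8 := by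
    intro Q
    obtain ⟨k, hk⟩ := IsPGroup.iff_card.mp Q.isPGroup'
    have h1 := Subgroup.card_mul_index (Q : Subgroup G)
    rw [hk, hG] at h1
    have hnd := Q.not_dvd_index
    have hk1 : k ≤ 1 := by
      by_contra hk2
      push Not at hk2
      have h2 : 3 ^ 2 ∣ 3 ^ k := pow_dvd_pow 3 hk2
      have h3 : 3 ^ 2 ∣ 24 := h2.trans ⟨_, h1.symm⟩
      omega
    interval_cases k
    · exfalso
      apply hnd
      have : (Q : Subgroup G).index = 24 := by simpa using h1
      rw [this]; norm_num
    · have : (Q : Subgroup G).index = 8 := by omega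
      exact ⟨by rw [hk]; norm_num, this⟩
  have hmod := card_sylow_modEq_one 3 G
  have hdvd : Nat.card (Sylow 3 G) ∣ 8 := by
    have := P.card_dvd_index
    rwa [(hcardSyl P).2] at this
  have hn3 : Nat.card (Sylow 3 G) = 1 ∨ Nat.card (Sylow 3 G) = 4 := by
    have hle := Nat.le_of_dvd (by norm_num) hdvd
    have hmod' : Nat.card (Sylow 3 G) % 3 = 1 := hmod
    interval_cases (Nat.card (Sylow 3 G)) <;> simp_all <;> omega
  rcases hn3 with h1 | h4
  · left
    haveI : Subsingleton (Sylow 3 G) := (Nat.card_eq_one_iff_unique.mp h1).1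
    haveI : (P : Subgroup G).Normal := Sylow.normal_of_subsingleton P
    refine sup_oddCore_eq_top (K := (P : Subgroup G)) ?_ hScard ?_
    · rw [hScard, (hcardSyl P).1, hG]
    · rw [(hcardSyl P).1]; decide
  · right
    let f := MulAction.toPermHom G (Sylow 3 G)
    have hker : f.ker = ⊥ := by
      have hnorm : ∀ x ∈ f.ker, ∀ Q : Sylow 3 G, x ∈ Subgroup.normalizer (Q : Set G) := by
        intro x hx Q
        have h := MonoidHom.mem_ker.mp hx
        have h2 : x • Q = Q := by
          have := congrArg (fun σ : Equiv.Perm (Sylow 3 G) => σ Q) h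
          simpa [f] using this
        exact Sylow.smul_eq_iff_mem_normalizer.mp h2
      have hNc : Nat.card (Subgroup.normalizer (P : Set G)) = 6 := by
        have h1 := Subgroup.card_mul_index (Subgroup.normalizer (P : Set G))
        rw [← P.card_eq_index_normalizer, h4, hG] at h1
        omega
      have hKdvd : Nat.card f.ker ∣ 6 := by
        rw [← hNc]
        exact Subgroup.card_dvd_of_le (fun x hx => hnorm x hx P)
      have hno3 : ¬ 3 ∣ Nat.card f.ker := by
        intro h3
        obtain ⟨x, hx⟩ := exists_prime_orderOf_dvd_card' 3 h3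
        have hx' : orderOf (x : G) = 3 := by
          rw [Subgroup.orderOf_coe]; exact hx
        have hpg : IsPGroup 3 (Subgroup.zpowers (x : G)) := by
          apply IsPGroup.of_card (n := 1)
          rw [Nat.card_zpowers, hx']; norm_num
        have hall : ∀ Q : Sylow 3 G, (Q : Subgroup G) = Subgroup.zpowers (x : G) := by
          intro Q
          have h5 := hpg.inf_normalizer_sylow Q
          have h6 : (x : G) ∈ Subgroup.zpowers (x : G) ⊓ Subgroup.normalizer (Q : Set G) :=
            ⟨Subgroup.mem_zpowers _, hnorm x x.2 Q⟩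
          rw [h5] at h6
          symm
          apply Subgroup.eq_of_le_of_card_ge
          · rw [Subgroup.zpowers_le]; exact h6.2
          · rw [(hcardSyl Q).1, Nat.card_zpowers, hx']
        have : Subsingleton (Sylow 3 G) :=
          ⟨fun Q₁ Q₂ => Sylow.ext (by rw [hall Q₁, hall Q₂])⟩
        have h1 : Nat.card (Sylow 3 G) = 1 := Nat.card_of_subsingleton P
        omega
      rw [eq_bot_iff]
      intro w hw
      rw [Subgroup.mem_bot]
      by_contra hw1
      have hK2 : Nat.card f.ker = 2 := by
        have hle := Nat.le_of_dvd (by norm_num) hKdvd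
        have hpos : 0 < Nat.card f.ker := Nat.card_pos
        have h1 : Nat.card f.ker ≠ 1 := by
          intro h1
          have : Subsingleton f.ker := (Nat.card_eq_one_iff_unique.mp h1).1
          have h3 : (⟨w, hw⟩ : f.ker) = 1 := Subsingleton.elim _ _
          exact hw1 (congrArg Subtype.val h3)
        have h3 : Nat.card f.ker ≠ 3 := fun h => hno3 (by rw [h])
        have h6 : Nat.card f.ker ≠ 6 := fun h => hno3 (by rw [h]; norm_num)
        have h45 : Nat.card f.ker ≠ 4 ∧ Nat.card f.ker ≠ 5 := by
          constructor <;> intro h <;> rw [h] at hKdvd <;> omega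
        omega
      obtain ⟨y, hy, huniq⟩ := (Nat.card_eq_two_iff' (1 : f.ker)).mp hK2
      have hcentral : ∀ g : G, g * w = w * g := by
        intro g
        have hm : g * w * g⁻¹ ∈ f.ker := (MonoidHom.normal_ker f).conj_mem w hw g
        have h1 : (⟨w, hw⟩ : f.ker) = y := huniq _ (fun h => hw1 (congrArg Subtype.val h))
        have h2 : (⟨g * w * g⁻¹, hm⟩ : f.ker) = y := huniq _ (fun h => hw1 (by
          have h5 : g * w * g⁻¹ = 1 := congrArg Subtype.val h
          exact conj_eq_one_iff.mp h5))
        have h3 : g * w * g⁻¹ = w := congrArg Subtype.val (h2.trans h1.symm)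
        exact mul_inv_eq_iff_eq_mul.mp h3
      rcases central_eq t e ht hcentral with h | h
      · exact hw1 h
      · subst h
        have hS : Subgroup.centralizer ({w} : Set G) = ⊤ := by
          rw [eq_top_iff]
          intro g _
          rw [Subgroup.mem_centralizer_singleton_iff]
          exact hcentral g
        rw [hS, Subgroup.card_top, hG] at hScard
        omega
    have hinj : Function.Injective f := (MonoidHom.ker_eq_bot_iff f).mp hker
    exact mulEquiv_perm_of_injective 4 h4 f hinj (by rw [hG]; rfl)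

end order24

section order120

variable {G : Type*} [Group G] [Finite G] (t : G)
  (e : Subgroup.centralizer ({t} : Set G) ≃* DihedralGroup 4) (H : Subgroup G)

include e in
/-- A normal subgroup of even order contains `t`. -/
lemma mem_of_even (ht : orderOf t = 2) (K : Subgroup G) [hK : K.Normal] (h2 : 2 ∣ Nat.card K) :
    t ∈ K := by
  haveI : Fact (Nat.Prime 2) := ⟨Nat.prime_two⟩
  obtain ⟨P, hP⟩ := exists_sylow t e ht
  obtain ⟨w, hw⟩ := exists_prime_orderOf_dvd_card' 2 h2
  have hw' : orderOf (w : G) = 2 := by
    rw [Subgroup.orderOf_coe]; exact hw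
  have hpg : IsPGroup 2 (Subgroup.zpowers (w : G)) := by
    apply IsPGroup.of_card (n := 1)
    rw [Nat.card_zpowers, hw']; norm_num
  obtain ⟨Q, hQ⟩ := hpg.exists_le_sylow
  have huQ : (w : G) ∈ (Q : Subgroup G) := hQ (Subgroup.mem_zpowers _)
  obtain ⟨g, hg⟩ := MulAction.exists_smul_eq G Q P
  have h1 : MulAut.conj g • (Q : Subgroup G) = (P : Subgroup G) := by
    rw [← hg]; rfl
  have h2 : g * (w : G) * g⁻¹ ∈ (P : Subgroup G) := by
    rw [← h1]
    exact Subgroup.smul_mem_pointwise_smul _ (MulAut.conj g) _ huQ
  rw [hP, Subgroup.mem_centralizer_singleton_iff] at h2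
  obtain ⟨c, hc⟩ := iot_surj t e h2
  have hcK : iot t e c ∈ K := by
    rw [hc]
    exact hK.conj_mem _ w.2 g
  have hc1 : c ≠ 1 := by
    rintro rfl
    rw [map_one] at hc
    have h3 : (w : G) = 1 := conj_eq_one_iff.mp hc.symm
    rw [h3] at hw'
    simp at hw'
  have key : ∀ c : D8, c ≠ 1 → c = r 2 ∨ ∃ s : D8, c * (s * c⁻¹ * s⁻¹) = r 2 := by decide
  rcases key c hc1 with rfl | ⟨s, hs⟩
  · rwa [iot_r2 t e ht] at hcK
  · rw [← iot_r2 t e ht, ← hs, map_mul]
    refine K.mul_mem hcK ?_
    rw [map_mul, map_mul, map_inv, map_inv]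
    exact hK.conj_mem _ (K.inv_mem hcK) _

include e in
/-- A normal subgroup of odd order has no element commuting with a conjugate of `t`. -/
lemma fpf_of_odd (ht : orderOf t = 2) (N : Subgroup G)
    [hN : N.Normal] (hodd : Odd (Nat.card N)) : ∀ u, IsConj t u → ∀ x ∈ N, x * u = u * x → x = 1 := by
  have hfp0 : ∀ x ∈ N, x * t = t * x → x = 1 := by
    intro x hx hc
    obtain ⟨c, rfl⟩ := iot_surj t e hc
    have h1 : orderOf (iot t e c) ∣ Nat.card N := Subgroup.orderOf_dvd_natCard N hx
    have h2 : orderOf (iot t e c) ∣ 8 := by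
      rw [orderOf_injective _ (iot_inj t e), ← card_D8]
      exact orderOf_dvd_natCard c
    have h3 : Nat.Coprime (Nat.card N) 8 := by
      have : Nat.Coprime (Nat.card N) (2 ^ 3) :=
        Nat.Coprime.pow_right 3 (Nat.coprime_two_right.mpr hodd)
      simpa using this
    have h4 := Nat.Coprime.eq_one_of_dvd (h3.coprime_dvd_left h1) h2
    exact orderOf_eq_one_iff.mp h4
  intro u hu x hx hc
  obtain ⟨g, rfl⟩ := isConj_iff.mp hu
  have h5 := hfp0 (g⁻¹ * x * g) (by simpa using hN.conj_mem x hx g⁻¹) (by
    have : x * (g * t * g⁻¹) * g = (g * t * g⁻¹) * x * g := by rw [hc]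
    calc g⁻¹ * x * g * t = g⁻¹ * (x * (g * t * g⁻¹) * g) := by group
      _ = g⁻¹ * ((g * t * g⁻¹) * x * g) := by rw [this]
      _ = _ := by group)
  have : x = g * (g⁻¹ * x * g) * g⁻¹ := by group
  rw [this, h5]
  group

include e in
/-- The case `|G| = 120`. -/
theorem order120 (ht : orderOf t = 2) (hG : Nat.card G = 120) (hH : H.index = 2)
    (htH : t ∈ H) (hSH : ¬ Subgroup.centralizer ({t} : Set G) ≤ H) (y a c : G)
    (ha : a = y * t * y⁻¹) (hc : c = y * a * y⁻¹)
    (hV : ∀ x, x ∈ Subgroup.centralizer ({t} : Set G) ⊓ H ↔ x = 1 ∨ x = t ∨ x = a ∨ x = c)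
    (hat : a ≠ t) (hct : c ≠ t) (hca : c ≠ a)
    (hyN : y ∈ Subgroup.normalizer
      ((Subgroup.centralizer ({t} : Set G) ⊓ H : Subgroup G) : Set G)) :
    Nonempty (G ≃* Equiv.Perm (Fin 5)) := by
  classical
  letI : Fintype G := Fintype.ofFinite G
  haveI hHn : H.Normal := Subgroup.normal_of_index_eq_two hH
  set S := Subgroup.centralizer ({t} : Set G) with hS
  set V := S ⊓ H with hVdef
  set N := Subgroup.normalizer (V : Set G) with hN
  have hScard : Nat.card S = 8 := card_cent t e
  have ht1 : t ≠ 1 := by
    rintro rfl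
    simp at ht
  have htt : t * t = 1 := by
    rw [← sq, ← ht, pow_orderOf_eq_one]
  have hconja : IsConj t a := by rw [ha]; exact isConj_iff.mpr ⟨y, rfl⟩
  have hconjc : IsConj t c := by
    rw [hc]
    exact hconja.trans (isConj_iff.mpr ⟨y, rfl⟩)
  have hne1 : ∀ {u : G}, IsConj t u → u ≠ 1 := fun {u} hu h => by
    rw [h] at hu
    exact ht1 (isConj_one_right.mp (isConj_comm.mp hu))
  have hinv : ∀ {u : G}, IsConj t u → u * u = 1 := fun {u} hu => by
    obtain ⟨g, rfl⟩ := isConj_iff.mp hu
    calc g * t * g⁻¹ * (g * t * g⁻¹) = g * (t * t) * g⁻¹ := by group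
      _ = 1 := by rw [htt]; group
  have htV : t ∈ V := (hV t).mpr (Or.inr (Or.inl rfl))
  have haV : a ∈ V := (hV a).mpr (Or.inr (Or.inr (Or.inl rfl)))
  -- `t * a = c`
  have htaV : t * a ∈ V := V.mul_mem htV haV
  have hta : t * a = c := by
    rcases (hV _).mp htaV with h | h | h | h
    · exfalso
      have : t = a⁻¹ := eq_inv_of_mul_eq_one_left h
      rw [inv_eq_of_mul_eq_one_right (hinv hconja)] at this
      exact hat this.symm
    · exfalso
      have : t * a = t * 1 := by rw [h, mul_one]
      exact hne1 hconja (mul_left_cancel this)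
    · exfalso
      have : t * a = 1 * a := by rw [h, one_mul]
      exact ht1 (mul_right_cancel this)
    · exact h
  -- `S ≤ N`
  have hSN : S ≤ N := by
    intro s hs
    rw [hN, Subgroup.mem_set_normalizer_iff]
    intro h
    have hs1 : ∀ x, x ∈ S → s * x * s⁻¹ ∈ S := fun x hx =>
      S.mul_mem (S.mul_mem hs hx) (S.inv_mem hs)
    constructor
    · rintro ⟨h1, h2⟩
      exact ⟨hs1 _ h1, hHn.conj_mem _ h2 _⟩
    · rintro ⟨h1, h2⟩
      constructor
      · have := S.mul_mem (S.mul_mem (S.inv_mem hs) h1) hs
        have e2 : s⁻¹ * (s * h * s⁻¹) * s = h := by group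
        rwa [e2] at this
      · have := hHn.conj_mem _ h2 s⁻¹
        have e2 : s⁻¹ * (s * h * s⁻¹) * s⁻¹⁻¹ = h := by group
        rwa [e2] at this
  have hyS : y ∉ S := by
    intro hy
    rw [hS, Subgroup.mem_centralizer_singleton_iff] at hy
    apply hat
    rw [ha, hy]
    group
  -- the order of `N`
  have hNupper : Nat.card N ≤ 24 := by
    let s : Finset G := Finset.univ.filter (· ∈ N)
    let T : Finset G := {t, a, c}
    have hTcard : T.card ≤ 3 := Finset.card_le_three
    have hmaps : ∀ x ∈ s, x * t * x⁻¹ ∈ T := by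
      intro x hx
      have hx' : x ∈ N := (Finset.mem_filter.mp hx).2
      rw [hN, Subgroup.mem_set_normalizer_iff] at hx'
      have h1 : x * t * x⁻¹ ∈ V := (hx' t).mp htV
      have h2 : x * t * x⁻¹ ≠ 1 := hne1 (isConj_iff.mpr ⟨x, rfl⟩)
      rcases (hV _).mp h1 with h | h | h | h
      · exact absurd h h2
      · rw [h]; simp [T]
      · rw [h]; simp [T]
      · rw [h]; simp [T]
    have hfib : ∀ b ∈ T, (s.filter (fun x => x * t * x⁻¹ = b)).card ≤ 8 := by
      intro b _
      by_cases hne : (s.filter (fun x => x * t * x⁻¹ = b)).Nonempty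
      · obtain ⟨x₀, hx₀⟩ := hne
        have hx₀' := (Finset.mem_filter.mp hx₀).2
        have hle : (s.filter (fun x => x * t * x⁻¹ = b)).card ≤
            (Finset.univ.filter (· ∈ S)).card := by
          apply Finset.card_le_card_of_injOn (fun x => x₀⁻¹ * x)
          · intro x hx
            have hx' := (Finset.mem_filter.mp hx).2
            simp only [Finset.coe_filter, Finset.mem_univ, true_and, Set.mem_ofPred_eq]
            rw [hS, Subgroup.mem_centralizer_singleton_iff]
            have h3 : x * t * x⁻¹ = x₀ * t * x₀⁻¹ := hx'.trans hx₀'.symm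
            calc x₀⁻¹ * x * t = x₀⁻¹ * (x * t * x⁻¹) * x := by group
              _ = x₀⁻¹ * (x₀ * t * x₀⁻¹) * x := by rw [h3]
              _ = t * (x₀⁻¹ * x) := by group
          · intro x _ x' _ h
            exact mul_left_cancel h
        have hSc : (Finset.univ.filter (· ∈ S)).card = 8 := by
          rw [← hScard, Nat.card_eq_fintype_card, Fintype.card_subtype]
        omega
      · rw [Finset.not_nonempty_iff_eq_empty] at hne
        rw [hne]
        simp
    have h1 := Finset.card_le_mul_card_image_of_maps_to hmaps 8 hfib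
    have h2 : Nat.card N = s.card := by
      rw [Nat.card_eq_fintype_card, Fintype.card_subtype]
    rw [h2]
    nlinarith
  have hNcard : Nat.card N = 24 := by
    have h1 : Nat.card S ∣ Nat.card N := Subgroup.card_dvd_of_le hSN
    rw [hScard] at h1
    have h2 : Nat.card N ∣ 120 := by
      rw [← hG]
      exact Subgroup.card_subgroup_dvd_card N
    have h3 : Nat.card N ≠ 8 := by
      intro h8
      have : S = N := Subgroup.eq_of_le_of_card_ge hSN (by rw [h8, hScard])
      exact hyS (this ▸ hyN)
    obtain ⟨k, hk⟩ := h1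
    have hk0 : k ≤ 3 := by omega
    interval_cases k
    · have : 0 < Nat.card N := Nat.card_pos
      omega
    · omega
    · rw [hk] at h2
      omega
    · omega
  have hNindex : N.index = 5 := by
    have h1 := Subgroup.card_mul_index N
    rw [hNcard, hG] at h1
    omega
  let f := MulAction.toPermHom G (G ⧸ N)
  have hker : f.ker = N.normalCore := (Subgroup.normalCore_eq_ker N).symm
  have hKN : f.ker ≤ N := by
    rw [hker]
    exact Subgroup.normalCore_le N
  haveI hKn : f.ker.Normal := MonoidHom.normal_ker f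
  have hbot : f.ker = ⊥ := by
    rcases Nat.even_or_odd (Nat.card f.ker) with h | h
    · exfalso
      have htK : t ∈ f.ker := mem_of_even t e ht f.ker h.two_dvd
      have hcls : Nat.card {u : G // IsConj t u} = 15 := by
        have h1 := card_isConj_mul_card_centralizer t
        rw [hScard] at h1
        have h2 : Nat.card {y : G // IsConj y t} = Nat.card {u : G // IsConj t u} :=
          Nat.card_congr (Equiv.subtypeEquivRight fun y => isConj_comm)
        rw [h2, hG] at h1
        omega
      have hle : 15 ≤ Nat.card (N ⊓ H : Subgroup G) := by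
        rw [← hcls]
        have hmem : ∀ u : {u : G // IsConj t u}, (u : G) ∈ N ⊓ H := by
          rintro ⟨u, hu⟩
          obtain ⟨g, rfl⟩ := isConj_iff.mp hu
          exact ⟨hKN (hKn.conj_mem t htK g), hHn.conj_mem t htH g⟩
        exact Nat.card_le_card_of_injective (fun u => (⟨u, hmem u⟩ : (N ⊓ H : Subgroup G)))
          (fun u v h => Subtype.ext (congrArg (fun z : (N ⊓ H : Subgroup G) => (z : G)) h))
      have hdvd : Nat.card (N ⊓ H : Subgroup G) ∣ 24 := by
        rw [← hNcard]
        exact Subgroup.card_dvd_of_le inf_le_left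
      have h24 : Nat.card (N ⊓ H : Subgroup G) = 24 := by
        obtain ⟨k, hk⟩ := hdvd
        have hk1 : k ≤ 1 := by
          by_contra hk2
          push Not at hk2
          nlinarith
        have hk0 : k ≠ 0 := by
          rintro rfl
          omega
        have : k = 1 := by omega
        rw [this] at hk
        omega
      have hNle : N ≤ H := by
        have : (N ⊓ H : Subgroup G) = N := Subgroup.eq_of_le_of_card_ge inf_le_left
          (by rw [h24, hNcard])
        exact inf_eq_left.mp this
      exact hSH (hSN.trans hNle)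
    · have hfp := fpf_of_odd t e ht f.ker h
      rw [eq_bot_iff]
      intro n hn
      rw [Subgroup.mem_bot]
      have i1 := Cfsg.Agent.Lib.Invol8.Simple.inverts_of_fpf f.ker t htt (hfp t (IsConj.refl t)) hn
      have i2 := Cfsg.Agent.Lib.Invol8.Simple.inverts_of_fpf f.ker a (hinv hconja) (hfp a hconja) hn
      have i3 := Cfsg.Agent.Lib.Invol8.Simple.inverts_of_fpf f.ker c (hinv hconjc) (hfp c hconjc) hn
      rw [← hta] at i3
      have hnn : n⁻¹ = n := by
        have e1 : (t * a) * n * (t * a)⁻¹ = t * (a * n * a⁻¹) * t⁻¹ := by group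
        rw [e1, i2] at i3
        have h6 : t * n⁻¹ * t⁻¹ = n := by
          have : t * n⁻¹ * t⁻¹ = (t * n * t⁻¹)⁻¹ := by group
          rw [this, i1, inv_inv]
        rw [h6] at i3
        exact i3.symm
      have hn2 : n ^ 2 = 1 := by
        rw [sq]
        nth_rewrite 1 [← hnn]
        simp
      have h7 : orderOf n ∣ 2 := orderOf_dvd_of_pow_eq_one hn2
      have h8 : orderOf n ∣ Nat.card f.ker := Subgroup.orderOf_dvd_natCard _ hn
      have h9 : Nat.Coprime (Nat.card f.ker) 2 := Nat.coprime_two_right.mpr h
      exact orderOf_eq_one_iff.mp (Nat.Coprime.eq_one_of_dvd (h9.coprime_dvd_left h8) h7)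
  have hinj : Function.Injective f := (MonoidHom.ker_eq_bot_iff f).mp hbot
  exact mulEquiv_perm_of_injective 5 hNindex f hinj (by rw [hG]; rfl)

end order120

section indexTwo

variable {G : Type*} [Group G] [Finite G] (t : G)
  (e : Subgroup.centralizer ({t} : Set G) ≃* DihedralGroup 4) (H : Subgroup G)

include e in
/-- **Main theorem of this file.** -/
theorem index_two_case (ht : orderOf t = 2) (hH : H.index = 2) :
    Subgroup.centralizer ({t} : Set G) ⊔ Cfsg.oddCore G = ⊤ ∨
      Nonempty (G ≃* Equiv.Perm (Fin 4)) ∨ Nonempty (G ≃* Equiv.Perm (Fin 5)) := by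
  classical
  haveI : Fact (Nat.Prime 2) := ⟨Nat.prime_two⟩
  haveI hHn : H.Normal := Subgroup.normal_of_index_eq_two hH
  have ht1 : t ≠ 1 := by
    rintro rfl
    simp at ht
  have htt : t * t = 1 := by
    rw [← sq, ← ht, pow_orderOf_eq_one]
  set S := Subgroup.centralizer ({t} : Set G) with hS
  have hScard : Nat.card S = 8 := card_cent t e
  obtain ⟨P, hP⟩ := exists_sylow t e ht
  have hmodd : Odd S.index := by
    have h0 : ¬ 2 ∣ S.index := by
      rw [hS, ← hP]
      exact P.not_dvd_index
    exact Nat.odd_iff.mpr (by omega)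
  set m := S.index with hm
  have hGm : Nat.card G = 8 * m := by
    rw [← Subgroup.card_mul_index S, hScard]
  have hHm : Nat.card H = 4 * m := by
    have := Subgroup.card_mul_index H
    rw [hH, hGm] at this
    omega
  have htH : t ∈ H := by
    rw [← iot_r2 t e ht]
    have : (r 2 : D8) = r 1 * r 1 := by decide
    rw [this, map_mul]
    exact Subgroup.mul_self_mem_of_index_two hH _
  have hSH : ¬ S ≤ H := by
    intro hle
    have := Subgroup.card_dvd_of_le hle
    rw [hScard, hHm] at this
    obtain ⟨k, hk⟩ := hmodd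
    omega
  have hVcard : Nat.card (S ⊓ H : Subgroup G) = 4 := by
    have h1 : H.relIndex S ∣ 2 := hH ▸ H.relIndex_dvd_index_of_normal S
    have h2 : H.relIndex S ≠ 1 := fun h => hSH (Subgroup.relIndex_eq_one.mp h)
    have h3 : H.relIndex S = 2 := ((Nat.dvd_prime Nat.prime_two).mp h1).resolve_left h2
    have h4 := Subgroup.card_mul_index (H.subgroupOf S)
    have h5 : (H.subgroupOf S).index = 2 := h3
    rw [h5, hScard] at h4
    have h6 : Nat.card (H.subgroupOf S) = 4 := by omega
    rw [inf_comm, ← Subgroup.subgroupOf_map_subtype,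
      Subgroup.card_map_of_injective S.subtype_injective]
    exact h6
  let t' : H := ⟨t, htH⟩
  have htt' : t' * t' = 1 := Subtype.ext htt
  have ht1' : t' ≠ 1 := fun h => ht1 (congrArg Subtype.val h)
  set A := Subgroup.centralizer ({t'} : Set H) with hA
  have hAmem : ∀ x : H, x ∈ A ↔ (x : G) ∈ S := by
    intro x
    rw [hA, Subgroup.mem_centralizer_singleton_iff, hS, Subgroup.mem_centralizer_singleton_iff]
    exact ⟨fun h => congrArg Subtype.val h, fun h => Subtype.ext h⟩
  have hAmap : A.map H.subtype = S ⊓ H := by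
    ext x
    constructor
    · rintro ⟨y, hy, rfl⟩
      exact ⟨(hAmem y).mp hy, y.2⟩
    · rintro ⟨h1, h2⟩
      exact ⟨⟨x, h2⟩, (hAmem _).mpr h1, rfl⟩
  have hAcard : Nat.card A = 4 := by
    rw [← hVcard, ← hAmap, Subgroup.card_map_of_injective H.subtype_injective]
  have hAidx : A.index = m := by
    have := Subgroup.card_mul_index A
    rw [hAcard, hHm] at this
    omega
  have hAp : IsPGroup 2 A := IsPGroup.of_card (n := 2) (by rw [hAcard]; norm_num)
  let Q : Sylow 2 H := hAp.toSylow (by
    rw [hAidx]
    obtain ⟨k, hk⟩ := hmodd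
    omega)
  have hQmem : ∀ x : H, x ∈ Q ↔ x ∈ A := fun x => Iff.rfl
  have hcomm : ∀ a b : A, a * b = b * a :=
    IsPGroup.commutative_of_card_eq_prime_sq (p := 2) (by rw [hAcard]; norm_num)
  by_cases hfix : ∀ y ∈ Subgroup.normalizer (Q : Set H), y * t' * y⁻¹ = t'
  · -- Burnside's transfer theorem
    left
    have hyA : ∀ y ∈ Subgroup.normalizer (Q : Set H), y ∈ A := by
      intro y hy
      rw [hA, Subgroup.mem_centralizer_singleton_iff]
      exact mul_inv_eq_iff_eq_mul.mp (hfix y hy)
    have hPc : Subgroup.normalizer (Q : Set H) ≤ Subgroup.centralizer (Q : Set H) := by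
      intro y hy
      rw [Subgroup.mem_centralizer_iff]
      intro h hh
      exact congrArg Subtype.val (hcomm ⟨h, hh⟩ ⟨y, hyA y hy⟩)
    have hc := MonoidHom.ker_transferSylow_isComplement' Q hPc
    set τ := MonoidHom.transferSylow Q hPc with hτ
    have hQcard : Nat.card Q = 4 := hAcard
    have hKcard : Nat.card τ.ker = m := by
      have := hc.card_mul
      rw [hQcard, hHm] at this
      omega
    set K₀ := τ.ker.map H.subtype with hK₀
    have hK₀card : Nat.card K₀ = m := by
      rw [hK₀, Subgroup.card_map_of_injective H.subtype_injective, hKcard]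
    have hcop : Nat.Coprime m 4 := by
      have : Nat.Coprime m (2 ^ 2) := Nat.Coprime.pow_right 2 (Nat.coprime_two_right.mpr hmodd)
      simpa using this
    haveI hK₀n : K₀.Normal := by
      constructor
      rintro _ ⟨k, hk, rfl⟩ g
      let x : H := ⟨g * (k : G) * g⁻¹, hHn.conj_mem _ k.2 g⟩
      refine ⟨x, ?_, rfl⟩
      have hk1 : k ^ m = 1 := by
        have : (⟨k, hk⟩ : τ.ker) ^ Nat.card τ.ker = 1 := pow_card_eq_one'
        rw [hKcard] at this
        exact congrArg Subtype.val this
      have hk2 : (k : G) ^ m = 1 := by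
        rw [← Subgroup.coe_pow, hk1]; rfl
      have hx1 : x ^ m = 1 := by
        apply Subtype.ext
        show (g * (k : G) * g⁻¹) ^ m = 1
        rw [conj_pow, hk2]
        group
      have hτ1 : (τ x) ^ m = 1 := by rw [← map_pow, hx1, map_one]
      have hτ2 : (τ x) ^ 4 = 1 := by
        have : (τ x) ^ Nat.card Q = 1 := pow_card_eq_one'
        rwa [hQcard] at this
      have h1 := orderOf_dvd_of_pow_eq_one hτ1
      have h2 := orderOf_dvd_of_pow_eq_one hτ2
      exact MonoidHom.mem_ker.mpr (orderOf_eq_one_iff.mp (Nat.Coprime.eq_one_of_dvd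
        (hcop.coprime_dvd_left h1) h2))
    exact sup_oddCore_eq_top (S := S) (K := K₀) (by rw [hScard, hK₀card, hGm]) hScard
      (by rw [hK₀card]; exact hmodd)
  · push Not at hfix
    obtain ⟨y, hyN, hy⟩ := hfix
    have hyN' : ∀ h : H, h ∈ A ↔ y * h * y⁻¹ ∈ A := Subgroup.mem_set_normalizer_iff.mp hyN
    have ht'A : t' ∈ A := by
      rw [hA, Subgroup.mem_centralizer_singleton_iff]
    set a : H := y * t' * y⁻¹ with ha
    set c : H := y * a * y⁻¹ with hc
    have haA : a ∈ A := (hyN' t').mp ht'A
    have hcA : c ∈ A := (hyN' a).mp haA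
    have huQ : y ^ m ∈ A := by
      have hpow : y ^ (4 * m) = 1 := by
        rw [← hHm]
        exact pow_card_eq_one'
      have hu4 : (y ^ m) ^ (2 ^ 2) = 1 := by
        rw [← pow_mul, show m * 2 ^ 2 = 4 * m by ring]
        exact hpow
      have hupg : IsPGroup 2 (Subgroup.zpowers (y ^ m)) := by
        obtain ⟨k, -, hk⟩ := (Nat.dvd_prime_pow Nat.prime_two).mp (orderOf_dvd_of_pow_eq_one hu4)
        apply IsPGroup.of_card (n := k)
        rw [Nat.card_zpowers, hk]
      have h5 := hupg.inf_normalizer_sylow Q
      have h6 : y ^ m ∈ Subgroup.zpowers (y ^ m) ⊓ Subgroup.normalizer (Q : Set H) :=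
        ⟨Subgroup.mem_zpowers _, pow_mem hyN m⟩
      rw [h5] at h6
      exact h6.2
    have hat : a ≠ t' := hy
    have hconja : IsConj t' a := isConj_iff.mpr ⟨y, rfl⟩
    have hconjc : IsConj t' c := hconja.trans (isConj_iff.mpr ⟨y, rfl⟩)
    have hne1 : ∀ {u : H}, IsConj t' u → u ≠ 1 := fun {u} hu h => by
      rw [h] at hu
      exact ht1' (isConj_one_right.mp (isConj_comm.mp hu))
    have hca : c ≠ a := by
      intro h
      apply hat
      have h1 : y * a * y⁻¹ = y * t' * y⁻¹ := h
      exact mul_left_cancel (mul_right_cancel h1)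
    have hct : c ≠ t' := by
      intro hct
      obtain ⟨k, hk⟩ := hmodd
      have h2 : Commute (y ^ 2) t' := by
        show y ^ 2 * t' = t' * y ^ 2
        have h3 : y * (y * t' * y⁻¹) * y⁻¹ = t' := hct
        calc y ^ 2 * t' = (y * (y * t' * y⁻¹) * y⁻¹) * y ^ 2 := by
              rw [sq]; group
          _ = t' * y ^ 2 := by rw [h3]
      have h3 : Commute ((y ^ 2) ^ k) t' := h2.pow_left k
      have h4 : y ^ m = y * (y ^ 2) ^ k := by
        rw [hk, ← pow_mul, pow_succ', mul_comm 2 k]
      have h5 : y ^ m * t' = t' * y ^ m := Subgroup.mem_centralizer_singleton_iff.mp huQ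
      apply hat
      rw [h4] at h5
      have h6 : y * (y ^ 2) ^ k * t' = t' * (y * (y ^ 2) ^ k) := h5
      rw [mul_assoc, h3.eq, ← mul_assoc] at h6
      have h7 : a = t' := by
        rw [ha]
        have h8 : y * t' * (y ^ 2) ^ k = t' * y * (y ^ 2) ^ k := by
          rw [h6, mul_assoc]
        have h9 : y * t' = t' * y := mul_right_cancel h8
        rw [h9]
        group
      exact h7
    have hall : ∀ x : H, x ∈ A → x = 1 ∨ x = t' ∨ x = a ∨ x = c := by
      intro x hx
      haveI : Fintype H := Fintype.ofFinite H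
      let T : Finset H := {1, t', a, c}
      let B : Finset H := Finset.univ.filter (· ∈ A)
      have hTB : T ⊆ B := by
        intro w hw
        simp only [T, Finset.mem_insert, Finset.mem_singleton] at hw
        refine Finset.mem_filter.mpr ⟨Finset.mem_univ _, ?_⟩
        rcases hw with h | h | h | h <;> rw [h]
        · exact one_mem _
        · exact ht'A
        · exact haA
        · exact hcA
      have hTcard : T.card = 4 := by
        have h1 : (1 : H) ∉ ({t', a, c} : Finset H) := by
          simp only [Finset.mem_insert, Finset.mem_singleton, not_or]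
          exact ⟨ht1'.symm, (hne1 hconja).symm, (hne1 hconjc).symm⟩
        have h2 : t' ∉ ({a, c} : Finset H) := by
          simp only [Finset.mem_insert, Finset.mem_singleton, not_or]
          exact ⟨hat.symm, hct.symm⟩
        have h3 : a ∉ ({c} : Finset H) := by
          simp only [Finset.mem_singleton]
          exact hca.symm
        rw [Finset.card_insert_of_notMem h1, Finset.card_insert_of_notMem h2,
          Finset.card_insert_of_notMem h3, Finset.card_singleton]
      have hBcard : B.card = 4 := by
        rw [← hAcard, Nat.card_eq_fintype_card, Fintype.card_subtype]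
      have hTB' : T = B := Finset.eq_of_subset_of_card_le hTB (by omega)
      have hxT : x ∈ T := by
        rw [hTB']
        exact Finset.mem_filter.mpr ⟨Finset.mem_univ _, hx⟩
      simpa [T] using hxT
    have hconj : ∀ x : H, x * t' = t' * x → x ≠ 1 → IsConj t' x := by
      intro x hx hx1
      have hxA : x ∈ A := by
        rw [hA, Subgroup.mem_centralizer_singleton_iff]
        exact hx
      rcases hall x hxA with h | h | h | h
      · exact absurd h hx1
      · rw [h]
      · rw [h]; exact hconja
      · rw [h]; exact hconjc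
    have hH1 : Nat.card G = 2 * Nat.card H := by
      rw [hHm, hGm]; ring
    rcases Four.card_eq_12_or_60 t' htt' ht1' hAcard hconj with h12 | h60
    · rcases order24 t e ht (by rw [hH1, h12]) with h | h
      · left; exact h
      · right; left; exact h
    · right; right
      refine order120 t e H ht (by rw [hH1, h60]) hH htH hSH (y : G) (a : G) (c : G) rfl rfl ?_
        (fun h => hat (Subtype.ext h)) (fun h => hct (Subtype.ext h))
        (fun h => hca (Subtype.ext h)) ?_
      · intro x
        constructor
        · rintro ⟨h1, h2⟩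
          rcases hall ⟨x, h2⟩ ((hAmem _).mpr h1) with h | h | h | h
          · left; exact congrArg Subtype.val h
          · right; left; exact congrArg Subtype.val h
          · right; right; left; exact congrArg Subtype.val h
          · right; right; right; exact congrArg Subtype.val h
        · have hmemV : ∀ w : H, w ∈ A → (w : G) ∈ S ⊓ H := fun w hw => ⟨(hAmem w).mp hw, w.2⟩
          rintro (rfl | rfl | rfl | rfl)
          · exact one_mem _
          · exact hmemV t' ht'A
          · exact hmemV a haA
          · exact hmemV c hcA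
      · rw [Subgroup.mem_set_normalizer_iff]
        intro h
        constructor
        · rintro ⟨h1, h2⟩
          have h3 := (hyN' ⟨h, h2⟩).mp ((hAmem _).mpr h1)
          exact ⟨(hAmem _).mp h3, (y * ⟨h, h2⟩ * y⁻¹ : H).2⟩
        · rintro ⟨h1, h2⟩
          have h2' : h ∈ H := by
            have := H.mul_mem (H.mul_mem (H.inv_mem y.2) h2) y.2
            have e2 : (y : G)⁻¹ * ((y : G) * h * (y : G)⁻¹) * (y : G) = h := by group
            rwa [e2] at this
          have h3 : y * ⟨h, h2'⟩ * y⁻¹ ∈ A := (hAmem _).mpr h1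
          exact ⟨(hAmem _).mp ((hyN' ⟨h, h2'⟩).mpr h3), h2'⟩

end indexTwo

end Cfsg.Agent.Lib.D8Index2.Main
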